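import Cfsg.Agent.Lib.ToddCox.A6C0.Step
import Cfsg.Agent.Lib.ToddCox.A6C1.Step
import Cfsg.Agent.Lib.ToddCox.A6C2.Step
import Cfsg.Agent.Lib.ToddCox.A6C3.Step
set_option autoImplicit false
set_option maxRecDepth 100000
namespace Cfsg.Agent.Lib.ToddCox.A6O

abbrev gen : ℕ → PresentedGroup Cfsg.Agent.Lib.ToddCox.A6T.rels := genP Cfsg.Agent.Lib.ToddCox.A6T.rels Cfsg.Agent.Lib.ToddCox.A6T.LT

theorem hTop : ∀ x, Cfsg.Agent.Lib.ToddCox.A6T.sg x true ∈ Cfsg.Agent.Lib.ToddCox.A6C0.Js := by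
  intro x
  cases x <;> decide +kernel
theorem hTopLT : ∀ x, Cfsg.Agent.Lib.ToddCox.A6T.LT.getD (Cfsg.Agent.Lib.ToddCox.A6T.sg x true) 1 = FreeGroup.of x := by
  intro x
  cases x <;> decide +kernel
theorem card_bd : 0 < Nat.card (PresentedGroup Cfsg.Agent.Lib.ToddCox.A6T.rels) ∧ Nat.card (PresentedGroup Cfsg.Agent.Lib.ToddCox.A6T.rels) ≤ 360 := by
  have h3 : 0 < Nat.card (letSub gen Cfsg.Agent.Lib.ToddCox.A6C3.Js) ∧ Nat.card (letSub gen Cfsg.Agent.Lib.ToddCox.A6C3.Js) ≤ 3 * 1 :=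
    card_le_of_chain Cfsg.Agent.Lib.ToddCox.A6C3.le Cfsg.Agent.Lib.ToddCox.A6C3.step card_letSub_nil
  have h2 : 0 < Nat.card (letSub gen Cfsg.Agent.Lib.ToddCox.A6C2.Js) ∧ Nat.card (letSub gen Cfsg.Agent.Lib.ToddCox.A6C2.Js) ≤ 4 * (3 * 1) :=
    card_le_of_chain Cfsg.Agent.Lib.ToddCox.A6C2.le Cfsg.Agent.Lib.ToddCox.A6C2.step h3
  have h1 : 0 < Nat.card (letSub gen Cfsg.Agent.Lib.ToddCox.A6C1.Js) ∧ Nat.card (letSub gen Cfsg.Agent.Lib.ToddCox.A6C1.Js) ≤ 5 * (4 * (3 * 1)) :=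
    card_le_of_chain Cfsg.Agent.Lib.ToddCox.A6C1.le Cfsg.Agent.Lib.ToddCox.A6C1.step h2
  have h0 : 0 < Nat.card (letSub gen Cfsg.Agent.Lib.ToddCox.A6C0.Js) ∧ Nat.card (letSub gen Cfsg.Agent.Lib.ToddCox.A6C0.Js) ≤ 6 * (5 * (4 * (3 * 1))) :=
    card_le_of_chain Cfsg.Agent.Lib.ToddCox.A6C0.le Cfsg.Agent.Lib.ToddCox.A6C0.step h1
  rw [show letSub gen Cfsg.Agent.Lib.ToddCox.A6C0.Js = ⊤ from letSub_top hTop hTopLT, Subgroup.card_top] at h0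
  norm_num at h0
  exact h0

end Cfsg.Agent.Lib.ToddCox.A6O
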